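import Cfsg.Agent.Nodes.NormalForm
import Cfsg.Agent.OddHalf.LongSL.Abs
import Cfsg.Agent.H836.T3SL
import Cfsg.Agent.ChevalleyStructure.SL2Hom
import Cfsg.Agent.H236.RS
import Cfsg.Agent.BpExc.TorCent

/-!
# 2-central involutions of the groups of Lie type over `F₃` (S2927 [EX3], helper515)

`mem_T` : `z` centralises a Sylow 2-subgroup; the torus `T` is a 2-group, every root has an odd pairing with a coroot
`ζ j ∈ T`, and `w = 1` or `w α = -α` for every `w` which preserves the parities (`α` a fixed simple root with root group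
of order `3`). Then a conjugate of `z` lies in `T`.

`kill` : a perfect subgroup of `C(z)` generated by 3-elements is trivial if `RS 3 C(z)`.
-/

set_option autoImplicit false
set_option linter.unusedSectionVars false

namespace Cfsg.Agent.H515.Tall

open Subgroup CoxeterSystem Cfsg.Agent.ChevalleyStructure.CoxeterGeom Cfsg.Agent.Tits.Roots Cfsg.Agent.Tits.Core
  Cfsg.Agent.Tits.Exchange Cfsg.Agent.Nodes.Reps Cfsg.Agent.Nodes.BNOf Cfsg.Agent.Nodes.StabComb
  Cfsg.Agent.Nodes.Bruhat Cfsg.Agent.Nodes.OppDec Cfsg.Agent.Nodes.LeviDec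
open Cfsg.Agent.ChevalleyStructure.SL2Hom (up lo)
open Cfsg.Agent.H836.T3SL (SL Q8 mem_Q8)

/-! ### `SL₂(3)` -/

/-- an element of order 4 -/
def q1 : SL := ⟨!![0, 1; -1, 0], by decide⟩

theorem q1_mem : q1 ^ 4 = 1 := by decide +kernel

theorem q2_mem : (up 1 * q1 * (up 1)⁻¹ : SL) ^ 4 = 1 := by decide +kernel

theorem q2_ne : ∀ t : ZMod 3, (up 1 * q1 * (up 1)⁻¹ : SL) ≠ lo t * q1 * (lo t)⁻¹ := by decide +kernel

section

variable {Y : Type*} [Group Y]

theorem isPGroup_sup {T : Subgroup Y} (hT : IsPGroup 2 T) {ψ : SL →* Y} (hψ : Function.Injective ψ)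
    (hn : T ≤ normalizer (ψ.range : Set Y)) : IsPGroup 2 ↥(T ⊔ Q8.map ψ) := by
  have hQ : IsPGroup 2 ↥(Q8.map ψ) := by
    have h1 : IsPGroup 2 ↥Q8 := by
      intro x
      refine ⟨2, Subtype.ext ?_⟩
      have := mem_Q8.1 x.2
      simpa using this
    exact h1.map ψ
  refine hT.to_sup_of_normal_right' hQ ?_
  have key : ∀ t ∈ T, ∀ y ∈ Q8.map ψ, t * y * t⁻¹ ∈ Q8.map ψ := by
    rintro t ht _ ⟨q, hq, rfl⟩
    have h1 : t * ψ q * t⁻¹ ∈ ψ.range := (mem_normalizer_iff.1 (hn ht) _).1 ⟨q, rfl⟩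
    obtain ⟨r, hr⟩ := h1
    refine ⟨r, ?_, hr⟩
    rw [SetLike.mem_coe, mem_Q8]
    apply hψ
    rw [map_pow, map_one, hr, conj_pow, ← map_pow, mem_Q8.1 hq, map_one, mul_one, mul_inv_cancel]
  intro t ht
  rw [mem_normalizer_iff]
  intro y
  refine ⟨key t ht y, fun h => ?_⟩
  have h1 := key t⁻¹ (inv_mem ht) _ h
  have h2 : t⁻¹ * (t * y * t⁻¹) * t⁻¹⁻¹ = y := by group
  rwa [h2] at h1

/-- an element centralising `Q₈` does not map `up 1` into the opposite root group -/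
theorem swap_absurd {ψ : SL →* Y} (hψ : Function.Injective ψ) {z : Y} (hz : ∀ y ∈ Q8.map ψ, y * z = z * y)
    {t : ZMod 3} (ht : z * ψ (up 1) * z⁻¹ = ψ (lo t)) : False := by
  have h1 : ∀ q : SL, q ^ 4 = 1 → z * ψ q * z⁻¹ = ψ q := by
    intro q hq
    rw [← hz _ ⟨q, mem_Q8.2 hq, rfl⟩, mul_inv_cancel_right]
  apply q2_ne t
  apply hψ
  have h2 := h1 _ q2_mem
  have h3 : z * ψ (up 1 * q1 * (up 1)⁻¹) * z⁻¹ =
      (z * ψ (up 1) * z⁻¹) * (z * ψ q1 * z⁻¹) * (z * ψ (up 1) * z⁻¹)⁻¹ := by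
    rw [map_mul, map_mul, map_inv]; group
  rw [h3, ht, h1 _ q1_mem, ← map_inv, ← map_mul, ← map_mul] at h2
  exact h2.symm

/-- **A perfect subgroup of `C(z)` generated by `3`-elements.** -/
theorem kill [Finite Y] {z : Y} (h : H236.RS 3 ↥(centralizer ({z} : Set Y))) {J : Subgroup Y}
    (hJ : J ≤ centralizer ({z} : Set Y)) {s : Set Y} (hs : J = closure s) (h3 : ∀ x ∈ s, x ^ 3 = 1)
    (hp : J ≤ ⁅J, J⁆) : J = ⊥ := by
  have : Fact (Nat.Prime 3) := ⟨Nat.prime_three⟩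
  have h' : Group.IsSolvable ↥(BpGate.Hp 3 ↥(centralizer ({z} : Set Y))) := h
  have h1 : J.subgroupOf (centralizer ({z} : Set Y)) ≤ BpGate.Hp 3 ↥(centralizer ({z} : Set Y)) := by
    have h2 : J ≤ (BpGate.Hp 3 ↥(centralizer ({z} : Set Y))).map (centralizer ({z} : Set Y)).subtype := by
      rw [hs, closure_le]
      intro x hx
      have hxJ : x ∈ J := by rw [hs]; exact subset_closure hx
      exact ⟨⟨x, hJ hxJ⟩, H236.mem_Hp_of_pow (n := 1) (Subtype.ext (by rw [pow_one]; exact h3 x hx)), rfl⟩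
    intro x hx
    obtain ⟨y, hy, e⟩ := h2 hx
    have : y = x := Subtype.ext e
    rwa [← this]
  have hsol : Group.IsSolvable ↥J := by
    let f : ↥J →* ↥(BpGate.Hp 3 ↥(centralizer ({z} : Set Y))) :=
      (inclusion hJ).codRestrict _ fun x => h1 (show (inclusion hJ x) ∈ J.subgroupOf _ from x.2)
    exact Group.isSolvable_of_isSolvable_injective (f := f) fun x y e => by
      have h2 := congrArg Subtype.val (congrArg Subtype.val e)
      exact Subtype.ext h2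
  have hle : ⁅J, J⁆ ≤ J := commutator_le.2 fun a ha b hb => by
    rw [commutatorElement_def]
    exact mul_mem (mul_mem (mul_mem ha hb) (inv_mem ha)) (inv_mem hb)
  exact Schreier.Basic.eq_bot_of_perfect_of_solvable (le_antisymm hle hp) hsol

end

/-! ### the torus -/

section Main

variable {I W Y : Type*} [Fintype I] [DecidableEq I] [Group W] [Group Y] {M : CoxeterMatrix I}
  {cs : CoxeterSystem M W} {A : I → I → ℤ} {h : IsCartan M A} {p : ℕ} {T : Subgroup Y} {n : I → Y}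
  {X : (I → ℤ) → Subgroup Y}

/-- the parities of the pairings with the coroots are preserved -/
def Par (cs : CoxeterSystem M W) (h : IsCartan M A) (w : W) : Prop :=
  ∀ j x, IsRoot cs h x → (pairing A j (rep cs h w x) % 2 = 0 ↔ pairing A j x % 2 = 0)

theorem Sup_eq_bot {S : Set (I → ℤ)} {V : (I → ℤ) → Subgroup Y} (hV : ∀ x ∈ S, V x = ⊥) : RGD.Sup V S = ⊥ := by
  rw [eq_bot_iff]
  exact RGD.Sup_le fun x hx => (hV x hx).le

/-- **The centralizer of a Sylow 2-subgroup is in the torus.** -/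
theorem mem_T (R : RGD cs h p T n X) [Finite W] [Finite Y] (hG : GG cs h T X = ⊤) (hT2 : IsPGroup 2 T)
    (ζ : I → Y) (hζ : ∀ j, ζ j ∈ T)
    (hev : ∀ j x, IsRoot cs h x → pairing A j x % 2 = 0 → ∀ u ∈ X x, ζ j * u = u * ζ j)
    (hodd : ∀ j x, IsRoot cs h x → pairing A j x % 2 ≠ 0 → ∀ u ∈ X x, ζ j * u = u * ζ j → u = 1)
    (hno : ∀ x, IsRoot cs h x → ∃ j, pairing A j x % 2 ≠ 0)
    {i₀ : I} (hcomb : ∀ w : W, Par cs h w → w = 1 ∨ rep cs h w (sr i₀) = - sr i₀)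
    {ψ : SL →* Y} (hψ : Function.Injective ψ) (hψ1 : ψ (up 1) ∈ X (sr i₀))
    (hψ2 : ∀ u ∈ X (-sr i₀), ∃ t, u = ψ (lo t)) (hψT : T ≤ normalizer (ψ.range : Set Y))
    {z : Y} {P : Sylow 2 Y} (hz : (P : Subgroup Y) ≤ centralizer ({z} : Set Y)) :
    ∃ g : Y, g * z * g⁻¹ ∈ T := by
  have : Fact (Nat.Prime 2) := ⟨Nat.prime_two⟩
  obtain ⟨P', hP'⟩ := (isPGroup_sup hT2 hψ hψT).exists_le_sylow
  obtain ⟨g, hg⟩ := MulAction.exists_smul_eq Y P P'
  refine ⟨g, ?_⟩
  obtain ⟨z', hz'⟩ : ∃ z', z' = g * z * g⁻¹ := ⟨_, rfl⟩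
  rw [← hz']
  have hc : ∀ y ∈ T ⊔ Q8.map ψ, y * z' = z' * y := by
    intro y hy
    have h1 : y ∈ (P' : Subgroup Y) := hP' hy
    rw [← hg, Sylow.coe_subgroup_smul, mem_pointwise_smul_iff_inv_smul_mem] at h1
    have h2 := mem_centralizer_singleton_iff.1 (hz h1)
    have h3 : (MulAut.conj g)⁻¹ • y = g⁻¹ * y * g := by
      rw [← map_inv, MulAut.smul_def, MulAut.conj_apply, inv_inv]
    rw [h3] at h2
    rw [hz']
    calc y * (g * z * g⁻¹) = g * ((g⁻¹ * y * g) * z) * g⁻¹ := by group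
      _ = g * (z * (g⁻¹ * y * g)) * g⁻¹ := by rw [h2]
      _ = g * z * g⁻¹ * y := by group
  have hcT : ∀ t ∈ T, t * z' = z' * t := fun t ht => hc t (le_sup_left (a := T) ht)
  have hmem : z' ∈ centralizer (T : Set Y) := mem_centralizer_iff.2 fun t ht => hcT t ht
  -- no root group is centralised by `T`
  have hbot : ∀ x, IsRoot cs h x → X x ⊓ centralizer (T : Set Y) = ⊥ := by
    intro x hx
    rw [eq_bot_iff]
    rintro u ⟨hu, hu'⟩
    obtain ⟨j, hj⟩ := hno x hx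
    exact mem_bot.2 (hodd j x hx hj u hu (mem_centralizer_iff.1 hu' _ (hζ j)))
  have hU : RGD.Sup (fun x => X x ⊓ centralizer (T : Set Y)) (RGD.Pos cs h) = ⊥ :=
    Sup_eq_bot fun x hx => hbot x hx.1
  obtain ⟨u, hu, w, k, hk, -, v, hv, e⟩ :=
    Cfsg.Agent.Nodes.NormalForm.mem_centralizer R (S := (T : Set Y)) le_rfl (g := z') (by rw [hG]; trivial) hmem
  rw [hU, mem_bot] at hu hv
  rw [hu, hv, one_mul, mul_one] at e
  rw [← e] at hk
  -- parities
  have hconj : ∀ j x, IsRoot cs h x → ((∀ u ∈ X (rep cs h w x), ζ j * u = u * ζ j) ↔ ∀ u ∈ X x, ζ j * u = u * ζ j) := by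
    intro j x hx
    have hcj : ζ j * z' = z' * ζ j := hcT _ (hζ j)
    have hcj' : ζ j * z'⁻¹ = z'⁻¹ * ζ j := by
      rw [eq_inv_mul_iff_mul_eq, ← mul_assoc, ← hcj, mul_inv_cancel_right]
    constructor
    · intro H u hu
      have h1 := H _ (R.conj_mem hk hx hu)
      calc ζ j * u = z'⁻¹ * z' * ζ j * u := by group
        _ = z'⁻¹ * (z' * ζ j) * u := by group
        _ = z'⁻¹ * (ζ j * z') * u := by rw [hcj]
        _ = z'⁻¹ * (ζ j * (z' * u * z'⁻¹)) * z' := by group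
        _ = z'⁻¹ * ((z' * u * z'⁻¹) * ζ j) * z' := by rw [h1]
        _ = u * (z'⁻¹ * ζ j) * z' := by group
        _ = u * (ζ j * z'⁻¹) * z' := by rw [hcj']
        _ = u * ζ j := by group
    · intro H u hu
      have hk' : Rp cs R.nsys w⁻¹ z'⁻¹ := hk.inv
      have h2 := R.conj_mem hk' (hx.act w) hu
      rw [rep_inv_apply, inv_inv] at h2
      have h1 := H _ h2
      calc ζ j * u = z' * z'⁻¹ * ζ j * u := by group
        _ = z' * (z'⁻¹ * ζ j) * u := by group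
        _ = z' * (ζ j * z'⁻¹) * u := by rw [hcj']
        _ = z' * (ζ j * (z'⁻¹ * u * z')) * z'⁻¹ := by group
        _ = z' * ((z'⁻¹ * u * z') * ζ j) * z'⁻¹ := by rw [h1]
        _ = u * (z' * ζ j) * z'⁻¹ := by group
        _ = u * (ζ j * z') * z'⁻¹ := by rw [hcj]
        _ = u * ζ j := by group
  have hiff : ∀ j x, IsRoot cs h x → ((∀ u ∈ X x, ζ j * u = u * ζ j) ↔ pairing A j x % 2 = 0) := by
    intro j x hx
    constructor
    · intro H
      by_contra hne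
      obtain ⟨⟨u, hu⟩, hu1⟩ := Subgroup.ne_bot_iff_exists_ne_one.1 (X_ne_bot R hx)
      exact hu1 (Subtype.ext (hodd j x hx hne u hu (H u hu)))
    · exact hev j x hx
  have hpar : Par cs h w := fun j x hx => by
    rw [← hiff j _ (hx.act w), ← hiff j x hx]
    exact hconj j x hx
  rcases hcomb w hpar with rfl | h1
  · exact hk.mem_of_one
  · exfalso
    have h2 := R.conj_mem hk (isRoot_sr cs h i₀) hψ1
    rw [h1] at h2
    obtain ⟨t, ht⟩ := hψ2 _ h2
    exact swap_absurd hψ (fun y hy => hc y (le_sup_right (a := T) hy)) ht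

end Main

end Cfsg.Agent.H515.Tall
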